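import Cfsg.Agent.H866.OZ.KawTwo
import Cfsg.Agent.KFacts.RgdDiag

/-!
# The number of `p`-elements of a minimal parabolic subgroup (S2452, row `3D4(q)`, box K1; helper442)

* `count_of_ti` : counting lemma for a group `P` whose Sylow `p`-subgroups meet in the normal subgroup `V`;
* `card_pel_PJ` : `P_i` has `|V_i| |X_i|^2` `p`-elements;
* `card_pel_B`  : `B` has `|U|` `p`-elements.
-/

set_option autoImplicit false
set_option linter.unusedSectionVars false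

namespace Cfsg.Agent.H442.TW.Pel

open CoxeterSystem Cfsg.Agent.ChevalleyStructure.CoxeterGeom Cfsg.Agent.Tits.Roots Cfsg.Agent.Tits.Core
  Cfsg.Agent.Tits.Exchange Cfsg.Agent.Nodes.Reps Cfsg.Agent.Nodes.BNOf Cfsg.Agent.Nodes.StabComb
  Cfsg.Agent.Nodes.Bruhat Cfsg.Agent.Nodes.OppDec Cfsg.Agent.Nodes.LeviDec Cfsg.Agent.Nodes.NormalForm

section Abs

variable {G : Type*} [Group G] [Finite G] {p : ℕ} {P B U V : Subgroup G}

theorem card_E_mul (hUB : U ≤ B) (hBP : B ≤ P)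
    (hBU : ∀ b ∈ B, ∀ u ∈ U, b * u * b⁻¹ ∈ U)
    (hPV : ∀ g ∈ P, ∀ v ∈ V, g * v * g⁻¹ ∈ V)
    (hTI : ∀ g ∈ P, g ∉ B → ∀ u ∈ U, g * u * g⁻¹ ∈ U → g * u * g⁻¹ ∈ V)
    (hS : ∀ u ∈ P, (∃ k, orderOf u = p ^ k) → ∃ g ∈ P, g * u * g⁻¹ ∈ U)
    (hU : ∀ u ∈ U, ∃ k, orderOf u = p ^ k) :
    Nat.card {e : G // e ∈ P ∧ (∃ k, orderOf e = p ^ k) ∧ e ∉ V} * Nat.card B =
      Nat.card P * Nat.card {u : G // u ∈ U ∧ u ∉ V} := by
  classical
  rw [← Nat.card_prod, ← Nat.card_prod]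
  have hc : ∀ e : {e : G // e ∈ P ∧ (∃ k, orderOf e = p ^ k) ∧ e ∉ V}, ∃ g : P, (g : G) * e * (g : G)⁻¹ ∈ U := by
    rintro ⟨e, he, hk, -⟩
    obtain ⟨g, hg, h1⟩ := hS e he hk
    exact ⟨⟨g, hg⟩, h1⟩
  choose g₀ hg₀ using hc
  have hnV : ∀ {g e : G}, g ∈ P → e ∉ V → g * e * g⁻¹ ∉ V := by
    intro g e hg he h1
    apply he
    have h2 := hPV g⁻¹ (inv_mem hg) _ h1
    have h3 : g⁻¹ * (g * e * g⁻¹) * g⁻¹⁻¹ = e := by group
    rwa [h3] at h2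
  refine Nat.card_congr (Equiv.ofBijective (fun x => ((⟨(g₀ x.1 : G)⁻¹ * x.2, mul_mem (inv_mem (g₀ x.1).2) (hBP x.2.2)⟩ : P),
    (⟨(x.2 : G)⁻¹ * ((g₀ x.1 : G) * x.1 * (g₀ x.1 : G)⁻¹) * x.2, ?_, ?_⟩ : {u : G // u ∈ U ∧ u ∉ V}))) ⟨?_, ?_⟩)
  · have h1 := hBU (x.2 : G)⁻¹ (inv_mem x.2.2) _ (hg₀ x.1)
    rwa [inv_inv] at h1
  · have h1 := hnV (inv_mem (hBP x.2.2)) (hnV (g₀ x.1).2 x.1.2.2.2)
    rwa [inv_inv] at h1
  · rintro ⟨e, b⟩ ⟨e', b'⟩ h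
    simp only [Prod.mk.injEq, Subtype.mk.injEq] at h
    obtain ⟨h1, h2⟩ := h
    have h3 : ∀ (e : {e : G // e ∈ P ∧ (∃ k, orderOf e = p ^ k) ∧ e ∉ V}) (b : B), (e : G) =
        ((g₀ e : G)⁻¹ * b) * ((b : G)⁻¹ * ((g₀ e : G) * e * (g₀ e : G)⁻¹) * b) * ((g₀ e : G)⁻¹ * b)⁻¹ := by
      intro e b
      group
    have h4 : e = e' := by
      apply Subtype.ext
      rw [h3 e b, h3 e' b', h1, h2]
    subst h4
    have h5 : b = b' := Subtype.ext (mul_left_cancel h1)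
    rw [h5]
  · rintro ⟨⟨g, hg⟩, ⟨u, hu, huV⟩⟩
    have he1 : g * u * g⁻¹ ∈ P := mul_mem (mul_mem hg (hBP (hUB hu))) (inv_mem hg)
    have he2 : ∃ k, orderOf (g * u * g⁻¹) = p ^ k := by
      obtain ⟨k, hk⟩ := hU u hu
      refine ⟨k, ?_⟩
      rw [← hk]
      exact MulEquiv.orderOf_eq (MulAut.conj g) u
    set e : {e : G // e ∈ P ∧ (∃ k, orderOf e = p ^ k) ∧ e ∉ V} := ⟨g * u * g⁻¹, he1, he2, hnV hg huV⟩ with he
    have h1 := hg₀ e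
    have hb : (g₀ e : G) * g ∈ B := by
      by_contra hb
      have h2 : (g₀ e : G) * g * u * ((g₀ e : G) * g)⁻¹ = (g₀ e : G) * e * (g₀ e : G)⁻¹ := by
        rw [he]; group
      have h3 := hTI _ (mul_mem (g₀ e).2 hg) hb u hu (by rw [h2]; exact h1)
      exact hnV (mul_mem (g₀ e).2 hg) huV h3
    refine ⟨⟨e, ⟨(g₀ e : G) * g, hb⟩⟩, ?_⟩
    simp only [Prod.mk.injEq, Subtype.mk.injEq]
    refine ⟨by group, ?_⟩
    show ((g₀ e : G) * g)⁻¹ * ((g₀ e : G) * (g * u * g⁻¹) * (g₀ e : G)⁻¹) * ((g₀ e : G) * g) = u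
    group

theorem card_split {S : G → Prop} (hV : ∀ v ∈ V, S v) :
    Nat.card {u : G // S u} = Nat.card V + Nat.card {u : G // S u ∧ u ∉ V} := by
  classical
  have h1 : Nat.card {u : G // S u} = Nat.card {u : {u : G // S u} // (u : G) ∈ V} +
      Nat.card {u : {u : G // S u} // ¬ (u : G) ∈ V} := by
    rw [← Nat.card_sum]
    exact Nat.card_congr (Equiv.sumCompl fun u : {u : G // S u} => (u : G) ∈ V).symm
  rw [h1]
  congr 1
  · refine Nat.card_congr ⟨fun u => ⟨u.1.1, u.2⟩, fun v => ⟨⟨v.1, hV _ v.2⟩, v.2⟩, fun _ => rfl, fun _ => rfl⟩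
  · refine Nat.card_congr ⟨fun u => ⟨u.1.1, u.1.2, u.2⟩, fun v => ⟨⟨v.1, v.2.1⟩, v.2.2⟩, fun _ => rfl, fun _ => rfl⟩

/-- **counting the `p`-elements of a parabolic subgroup of rank one** -/
theorem count_of_ti (hVU : V ≤ U) (hUB : U ≤ B) (hBP : B ≤ P)
    (hBU : ∀ b ∈ B, ∀ u ∈ U, b * u * b⁻¹ ∈ U)
    (hPV : ∀ g ∈ P, ∀ v ∈ V, g * v * g⁻¹ ∈ V)
    (hTI : ∀ g ∈ P, g ∉ B → ∀ u ∈ U, g * u * g⁻¹ ∈ U → g * u * g⁻¹ ∈ V)
    (hS : ∀ u ∈ P, (∃ k, orderOf u = p ^ k) → ∃ g ∈ P, g * u * g⁻¹ ∈ U)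
    (hU : ∀ u ∈ U, ∃ k, orderOf u = p ^ k) {q : ℕ} (hP : Nat.card P = (1 + q) * Nat.card B)
    (hq : Nat.card U = q * Nat.card V) :
    Nat.card {u : G // u ∈ P ∧ ∃ k, orderOf u = p ^ k} = Nat.card V * q ^ 2 := by
  have h1 := card_E_mul hUB hBP hBU hPV hTI hS hU
  have h2 := card_split (V := V) (S := fun u => u ∈ P ∧ ∃ k, orderOf u = p ^ k)
    fun v hv => ⟨hBP (hUB (hVU hv)), hU v (hVU hv)⟩
  have h3 := card_split (V := V) (S := fun u => u ∈ U) fun v hv => hVU hv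
  have h4 : Nat.card {u : G // u ∈ U} = Nat.card U := rfl
  have h5 : Nat.card {u : G // (u ∈ P ∧ ∃ k, orderOf u = p ^ k) ∧ u ∉ V} =
      Nat.card {e : G // e ∈ P ∧ (∃ k, orderOf e = p ^ k) ∧ e ∉ V} :=
    Nat.card_congr (Equiv.subtypeEquivRight fun u => and_assoc)
  have hB : 0 < Nat.card B := Nat.card_pos
  rw [hP, mul_right_comm] at h1
  have h6 := Nat.eq_of_mul_eq_mul_right hB h1
  rw [h4, hq] at h3
  rw [h2, h5, h6]
  have h7 : Nat.card V + (1 + q) * Nat.card {u : G // u ∈ U ∧ u ∉ V} + (1 + q) * Nat.card V =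
      Nat.card V * q ^ 2 + (1 + q) * Nat.card V := by
    have h8 : Nat.card V + (1 + q) * Nat.card {u : G // u ∈ U ∧ u ∉ V} + (1 + q) * Nat.card V =
        Nat.card V + (1 + q) * (Nat.card V + Nat.card {u : G // u ∈ U ∧ u ∉ V}) := by ring
    rw [h8, ← h3]
    ring
  exact Nat.add_right_cancel h7

end Abs

section Rgd

variable {I W Y : Type*} [Fintype I] [DecidableEq I] [Group W] [Group Y] {M : CoxeterMatrix I}
  {cs : CoxeterSystem M W} {A : I → I → ℤ} {h : IsCartan M A} {p : ℕ} {T : Subgroup Y} {n : I → Y}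
  {X : (I → ℤ) → Subgroup Y} [Finite W] [Finite Y] [Fact p.Prime] (R : RGD cs h p T n X)

include R

theorem orderOf_of_mem_U {u : Y} (hu : u ∈ RGD.Sup X (RGD.Pos cs h)) : ∃ k, orderOf u = p ^ k := by
  obtain ⟨k, hk⟩ := (IsPGroup.iff_orderOf.1 R.isPGroup_Upos) ⟨u, hu⟩
  exact ⟨k, by rw [← hk, Subgroup.orderOf_mk]⟩

theorem conj_mem_U {b u : Y} (hb : b ∈ RGD.B cs h T X) (hu : u ∈ RGD.Sup X (RGD.Pos cs h)) :
    b * u * b⁻¹ ∈ RGD.Sup X (RGD.Pos cs h) :=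
  (Subgroup.mem_normalizer_iff.1 (R.B_le_normalizer_U hb) u).1 hu

theorem conj_mem_V {J : Set I} {g v : Y} (hg : g ∈ PJ cs h T X J) (hv : v ∈ VJ cs h X J) :
    g * v * g⁻¹ ∈ VJ cs h X J :=
  (Subgroup.mem_normalizer_iff.1 (PJ_le_normalizer_VJ R J hg) v).1 hv

/-- `mem_VJ_iff_of_subset` of H631/Kaw/Coef without `GG = ⊤` -/
theorem conj_mem_V_of_cell {g x : Y} (hg : g ∈ RGD.Sup X (RGD.Pos cs h)) {K : Set I} {w : W}
    (hx : Cell R.nsys cs h X w x) (hK : ∀ m ∈ K, rep cs h w (sr m) ≤ 0)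
    (h1 : x⁻¹ * g * x ∈ RGD.Sup X (RGD.Pos cs h)) : x⁻¹ * g * x ∈ VJ cs h X K := by
  obtain ⟨b₁, hb₁, k, hk, b₂, hb₂, e⟩ := hx
  have hu : b₁⁻¹ * g * b₁ ∈ RGD.Sup X (RGD.Pos cs h) := by
    have h2 := conj_mem_U R (inv_mem hb₁) hg
    rwa [inv_inv] at h2
  have hku : k⁻¹ * (b₁⁻¹ * g * b₁) * k ∈ RGD.Sup X (RGD.Pos cs h) := by
    have h2 := conj_mem_U R hb₂ h1
    have h3 : b₂ * (x⁻¹ * g * x) * b₂⁻¹ = k⁻¹ * (b₁⁻¹ * g * b₁) * k := by rw [e]; group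
    rwa [h3] at h2
  have h2 := mem_PW_of_conj R hk hu (RGD.U_le_B hku)
  have h3 : k⁻¹ * (b₁⁻¹ * g * b₁) * k ∈ VJ cs h X K := by
    refine conj_mem_Sup' R hk (fun y hy => hy.1) (fun y hy => ?_) h2
    obtain ⟨hy, hy0, hy1⟩ := hy
    rcases mem_PosJ_or_NotJ K (hy.act w⁻¹) hy1 with h4 | h4
    · exfalso
      have h5 : rep cs h w (rep cs h w⁻¹ y) ≤ 0 := by
        rw [Cfsg.Agent.H631.Kaw.map_eq_sum (rep cs h w) (rep cs h w⁻¹ y)]
        refine Finset.sum_nonpos fun m _ => ?_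
        by_cases hm : m ∈ K
        · exact smul_nonpos_of_nonneg_of_nonpos (h4.2.1 m) (hK m hm)
        · rw [h4.2.2 m hm, zero_smul]
      rw [rep_apply_inv] at h5
      exact hy.not_pos_neg hy0 h5
    · exact h4
  have h4 := conj_mem_V R (B_le_PJ (inv_mem hb₂)) h3
  have h5 : b₂⁻¹ * (k⁻¹ * (b₁⁻¹ * g * b₁) * k) * b₂⁻¹⁻¹ = x⁻¹ * g * x := by rw [e]; group
  rwa [h5] at h4

/-- `U` meets its conjugates in `P_i` by elements outside `B` only in `V_i` -/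
theorem conj_mem_V_of {i : I} {g u : Y} (hg : g ∈ PJ cs h T X ({i} : Set I)) (hgB : g ∉ RGD.B cs h T X)
    (hu : u ∈ RGD.Sup X (RGD.Pos cs h)) (h1 : g * u * g⁻¹ ∈ RGD.Sup X (RGD.Pos cs h)) :
    g * u * g⁻¹ ∈ VJ cs h X ({i} : Set I) := by
  obtain ⟨w, hw, hc⟩ := (mem_PJ_iff_cell R).1 (inv_mem hg)
  have hw1 : rep cs h w (sr i) ≤ 0 := by
    by_contra hn
    apply hgB
    have h2 : w = 1 := by
      refine eq_one_of_nonneg cs h _ fun j => ?_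
      by_cases hj : j = i
      · subst hj
        exact (((isRoot_sr cs h j).act w).pos_or_neg).resolve_right hn
      · exact (NotJ.act hw (sr_mem_NotJ (by simpa using hj))).2.1
    subst h2
    have h3 := inv_mem hc.mem_of_one
    rwa [inv_inv] at h3
  have h2 := conj_mem_V_of_cell R hu hc (K := {i}) (fun m hm => by rw [Set.mem_singleton_iff.1 hm]; exact hw1)
    (by rw [inv_inv]; exact h1)
  rwa [inv_inv] at h2

/-- every `p`-element of `P_J` is conjugate in `P_J` to an element of `U` -/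
theorem exists_conj_mem_U (J : Set I) {u : Y} (hu : u ∈ PJ cs h T X J) (hk : ∃ k, orderOf u = p ^ k) :
    ∃ g ∈ PJ cs h T X J, g * u * g⁻¹ ∈ RGD.Sup X (RGD.Pos cs h) := by
  set P := PJ cs h T X J with hP
  have hUP : RGD.Sup X (RGD.Pos cs h) ≤ P := le_trans RGD.U_le_B B_le_PJ
  have hU : IsPGroup p ((RGD.Sup X (RGD.Pos cs h)).subgroupOf P) := R.isPGroup_Upos.comap_subtype
  obtain ⟨S, hS⟩ := hU.exists_le_sylow
  have hSU : (S : Subgroup P).map P.subtype = RGD.Sup X (RGD.Pos cs h) := by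
    refine eq_U_of_isPGroup R (S.isPGroup'.map P.subtype) ?_ ?_
    · intro v hv
      exact ⟨⟨v, hUP hv⟩, hS (Subgroup.mem_subgroupOf.2 hv), rfl⟩
    · rintro _ ⟨v, -, rfl⟩
      exact PJ_le_GG v.2
  obtain ⟨k, hk⟩ := hk
  have hz : IsPGroup p (Subgroup.zpowers (⟨u, hu⟩ : P)) :=
    IsPGroup.of_card (n := k) (by rw [Nat.card_zpowers, Subgroup.orderOf_mk, hk])
  obtain ⟨Q, hQ⟩ := hz.exists_le_sylow
  obtain ⟨y, hy⟩ := MulAction.exists_smul_eq P Q S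
  refine ⟨y, y.2, ?_⟩
  rw [← hSU, ← hy]
  refine ⟨y * ⟨u, hu⟩ * y⁻¹, ?_, rfl⟩
  have h1 : (⟨u, hu⟩ : P) ∈ (Q : Subgroup P) := hQ (Subgroup.mem_zpowers _)
  rw [Sylow.smul_def, Sylow.pointwise_smul_def]
  exact Subgroup.smul_mem_pointwise_smul _ (MulAut.conj y) _ h1

/-- **K1**: the number of `p`-elements of a minimal parabolic subgroup -/
theorem card_pel_PJ (i : I) :
    Nat.card {u : Y // u ∈ PJ cs h T X ({i} : Set I) ∧ ∃ k, orderOf u = p ^ k} =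
      Nat.card (VJ cs h X ({i} : Set I)) * Nat.card (X (sr i)) ^ 2 := by
  refine count_of_ti (B := RGD.B cs h T X) (U := RGD.Sup X (RGD.Pos cs h)) (VJ_le_U _) RGD.U_le_B B_le_PJ
    (fun b hb u hu => conj_mem_U R hb hu) (fun g hg v hv => conj_mem_V R hg hv)
    (fun g hg hgB u hu h1 => conj_mem_V_of R hg hgB hu h1) (fun u hu hk => exists_conj_mem_U R _ hu hk)
    (fun u hu => orderOf_of_mem_U R hu) (Cfsg.Agent.H866.OZ.card_PJ_one R i) ?_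
  rw [Cfsg.Agent.H866.OZ.card_U_single R i, Cfsg.Agent.KFacts.RgdDiag.UJ_singleton i]

/-- the number of `p`-elements of `B` -/
theorem card_pel_B : Nat.card {u : Y // u ∈ RGD.B cs h T X ∧ ∃ k, orderOf u = p ^ k} =
    Nat.card (RGD.Sup X (RGD.Pos cs h)) := by
  refine Nat.card_congr (Equiv.subtypeEquivRight fun u => ⟨?_, fun hu => ⟨RGD.U_le_B hu, orderOf_of_mem_U R hu⟩⟩)
  rintro ⟨hu, k, hk⟩
  exact R.mem_U_of_mem_B hu (k := k) (by rw [← hk, pow_orderOf_eq_one])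

end Rgd

end Cfsg.Agent.H442.TW.Pel
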