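import Cfsg.Agent.H442.TW.Pel
import Cfsg.Agent.H35.ExcIdx
import Cfsg.Agent.ChevalleyStructure.TwD4Card
import Cfsg.Agent.ChevalleyStructure.D4H1
import Cfsg.Agent.Nodes.RGDTwD4
import Cfsg.Agent.H730.OZ.Defs
import Cfsg.Agent.S1067

/-!
# `³D₄(q)`: indices and numbers of `p`-elements of the two maximal parabolic subgroups (S2452, box K1; helper442)

For every Coxeter system `cs` of type `G₂` and `φ x = x ^ q`:
* `card_X0`, `card_X1` : `q`, `q ^ 3`; `card_T`; `card_U` : `q ^ 12`; `card_V0`, `card_V1` : `q ^ 11`, `q ^ 9`;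
* `index0`, `index1` : `(q^8+q^4+1)(q^3+1)`, `(q^8+q^4+1)(q+1)`;
* `pel0`, `pel1` : `q ^ 13`, `q ^ 15` (in the form of `H877.TW.kill_a`); `pelB` : `q ^ 12`;
* `factorization_p` : `12 f`.
-/

set_option autoImplicit false
set_option linter.unusedSectionVars false

namespace Cfsg.Agent.H442.TW.PelD4

open CoxeterSystem Cfsg.Agent.ChevalleyStructure.CoxeterGeom Cfsg.Agent.Tits.Roots Cfsg.Agent.Tits.Core
  Cfsg.Agent.Tits.Exchange Cfsg.Agent.Nodes.Reps Cfsg.Agent.Nodes.BNOf Cfsg.Agent.Nodes.StabComb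
  Cfsg.Agent.Nodes.Bruhat Cfsg.Agent.Nodes.OppDec Cfsg.Agent.Nodes.LeviDec Cfsg.Agent.Nodes.NormalForm
open Cfsg.Lie Cfsg.Agent.ChevalleyStructure Cfsg.Agent.Nodes.RGDTwD4 Cfsg.Agent.H35.ExcIdx
open Cfsg.Agent.Nodes.RGDTwGen Cfsg.Agent.Nodes.RGDChev Cfsg.Agent.Nodes.RGDFold
open Cfsg.Agent.H730.OZ (pSet)

universe u

variable {K : Type u} [Field K] [Fintype K] {q : ℕ} {φ : K →+* K}

theorem card_Xr (hφ : ∀ x, φ x = x ^ q) (hq : 1 < q) (hK : Fintype.card K = q ^ 3) (i : Fin 2) :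
    Nat.card ↥(X φ q (sr i)) = if i = 0 then q else q ^ 3 := by
  have hle := D4Fixed.twisted_le_fix hK hφ
  have key : ∀ (S : Subgroup (GL chevD4.Idx K)), R chevD4 hp K J (D4Fixed.sig φ) (sr i) = S ⊓ D4Fixed.fix φ →
      Nat.card ↥(X φ q (sr i)) = Nat.card {x : GL chevD4.Idx K // x ∈ (S : Set (GL chevD4.Idx K)) ∧
        x ∈ twistedD4 K q} := by
    intro S hS
    unfold X
    rw [hS]
    refine Nat.card_congr
      { toFun := fun x => ⟨x.1.1, (Subgroup.mem_inf.1 (Subgroup.mem_subgroupOf.1 x.2)).1, x.1.2⟩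
        invFun := fun x => ⟨⟨x.1, x.2.2⟩, Subgroup.mem_subgroupOf.2 (Subgroup.mem_inf.2 ⟨x.2.1, hle x.2.2⟩)⟩
        left_inv := fun x => rfl
        right_inv := fun x => rfl }
  fin_cases i
  · exact (key _ (R0 φ)).trans (TwD4Card.card_X0 hq hK hφ hle)
  · exact (key _ (R1 φ)).trans (TwD4Card.card_X1 hK hφ hle)

variable (hK : Fintype.card K = q ^ 3) (hφ : ∀ x, φ x = x ^ q) (hq : IsPrimePow q)

include hK hφ hq

theorem card_X0 : Nat.card ↥(X φ q (sr 0)) = q := by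
  rw [card_Xr hφ hq.one_lt hK, if_pos rfl]

theorem card_X1 : Nat.card ↥(X φ q (sr 1)) = q ^ 3 := by
  rw [card_Xr hφ hq.one_lt hK, if_neg (by decide)]

theorem card_T : Nat.card ↥(T K q) = (q - 1) * (q ^ 3 - 1) := by
  rw [← D4H1.card_H1 hq hK hφ]
  exact Nat.card_congr (Subgroup.subgroupOfEquivOfLe inf_le_right).toEquiv

theorem finG : Finite ↥(twistedD4 K q) := by
  have : Finite (GL chevD4.Idx K) := inferInstance
  infer_instance

variable {W : Type*} [Group W] (cs : CoxeterSystem CoxeterMatrix.G₂ W) {p : ℕ} [hpf : Fact p.Prime] [CharP K p]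

omit hφ in
theorem dvd_q : p ∣ q := by
  have h1 : p ∣ Fintype.card K := by
    rw [← CharP.cast_eq_zero_iff K p, FiniteField.cast_card_eq_zero]
  rw [hK] at h1
  exact hpf.out.dvd_of_dvd_pow h1

omit hφ in
theorem exists_pow : ∃ f, 0 < f ∧ q = p ^ f := by
  have h1 : p ∣ q := dvd_q hK hq
  obtain ⟨r, f, hr, hf, hrf⟩ := hq
  have hr' := hr.nat_prime
  rw [← hrf] at h1
  exact ⟨f, hf, by rw [(Nat.prime_dvd_prime_iff_eq hpf.out hr').1 (hpf.out.dvd_of_dvd_pow h1), hrf]⟩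

omit hφ in
theorem not_dvd : ¬ p ∣ (q ^ 2 - 1) * (q ^ 6 - 1) * (q ^ 8 + q ^ 4 + 1) := by
  have hrq : p ∣ q := dvd_q hK hq
  have hq1 := hq.one_lt
  have hsub : ∀ k, k ≠ 0 → ¬ p ∣ q ^ k - 1 := by
    intro k hk h3
    have h4 : p ∣ q ^ k := dvd_pow hrq hk
    have h5 : 1 ≤ q ^ k := Nat.one_le_pow _ _ (by omega)
    have h6 := Nat.dvd_sub h4 h3
    rw [Nat.sub_sub_self h5] at h6
    exact hpf.1.one_lt.ne' (Nat.dvd_one.1 h6)
  rw [hpf.1.dvd_mul, hpf.1.dvd_mul]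
  rintro ((h3 | h3) | h3)
  · exact hsub 2 (by norm_num) h3
  · exact hsub 6 (by norm_num) h3
  · have h4 : p ∣ q ^ 8 + q ^ 4 := dvd_add (dvd_pow hrq (by norm_num)) (dvd_pow hrq (by norm_num))
    exact hpf.1.one_lt.ne' (Nat.dvd_one.1 ((Nat.dvd_add_right h4).1 h3))

omit hφ in
/-- the `p`-part of the order -/
theorem factorization_p {f : ℕ} (hf : q = p ^ f) : (Nat.card ↥(twistedD4 K q)).factorization p = 12 * f := by
  have h1 := not_dvd hK hq (p := p)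
  rw [S1067.result hq hK, mul_assoc, mul_assoc, ← mul_assoc (q ^ 2 - 1)]
  have h2 : (q ^ 2 - 1) * (q ^ 6 - 1) * (q ^ 8 + q ^ 4 + 1) ≠ 0 := fun h => h1 (h ▸ dvd_zero _)
  rw [Nat.factorization_mul (pow_ne_zero _ hq.ne_zero) h2, Finsupp.add_apply,
    Nat.factorization_eq_zero_of_not_dvd h1, add_zero, hf, ← pow_mul, hpf.out.factorization_pow,
    Finsupp.single_eq_same, mul_comm]

theorem index_mul (i : Fin 2) : (PJ cs isCartan (T K q) (X φ q) ({i} : Set (Fin 2))).index *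
    (1 + Nat.card ↥(X φ q (sr i))) * ((q - 1) * (q ^ 3 - 1)) = (q ^ 2 - 1) * (q ^ 6 - 1) * (q ^ 8 + q ^ 4 + 1) := by
  obtain ⟨p, hcp⟩ := CharP.exists K
  have hpf : Fact p.Prime := ⟨CharP.char_is_prime K p⟩
  have := finG (φ := φ) hK hφ hq
  have hfin : Finite W := Nodes.RGDFold.finite_W (hp := hp) cs isCartan foldData
  have hR := rgd cs hK hφ p
  have hG1 : Nodes.RGDLib.G1 cs isCartan (X φ q) = ⊤ := G1_eq_top _ hK hφ
  have hGG : GG cs isCartan (T K q) (X φ q) = ⊤ := by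
    rw [eq_top_iff, ← hG1]
    exact le_sup_right
  obtain ⟨f, hf, hf'⟩ := exists_pow hK hq (p := p)
  exact index_eq hR hGG (Cfsg.Agent.H866.OZ.card_PJ_one hR i) (d := 1) (b := f * 12)
    (fun h => hpf.1.one_lt.ne' (Nat.dvd_one.1 h)) (by rw [one_mul, card_T hK hφ hq])
    (by rw [one_mul, S1067.result hq hK, pow_mul, ← hf']; ring) (not_dvd hK hq)

theorem index0 : (PJ cs isCartan (T K q) (X φ q) ({0} : Set (Fin 2))).index = (q ^ 8 + q ^ 4 + 1) * (q ^ 3 + 1) := by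
  obtain ⟨p, hcp⟩ := CharP.exists K
  have : Fact p.Prime := ⟨CharP.char_is_prime K p⟩
  have h := index_mul hK hφ hq cs 0
  rw [card_X0 hK hφ hq] at h
  generalize (PJ cs isCartan (T K q) (X φ q) ({0} : Set (Fin 2))).index = i at *
  have hq1 := hq.one_lt
  obtain ⟨m, rfl⟩ : ∃ m, q = m + 1 := ⟨q - 1, by omega⟩
  have hm : 0 < m := by omega
  have e1 : m + 1 - 1 = m := by omega
  have e2 : (m + 1) ^ 2 - 1 = m * (m + 2) := by apply Nat.sub_eq_of_eq_add; ring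
  have e3 : (m + 1) ^ 3 - 1 = m * (m ^ 2 + 3 * m + 3) := by apply Nat.sub_eq_of_eq_add; ring
  have e6 : (m + 1) ^ 6 - 1 = m * (m ^ 2 + 3 * m + 3) * ((m + 1) ^ 3 + 1) := by apply Nat.sub_eq_of_eq_add; ring
  rw [e1, e2, e3, e6] at h
  have h1 : m * (m * (m ^ 2 + 3 * m + 3)) * (m + 2) * i =
      m * (m * (m ^ 2 + 3 * m + 3)) * (m + 2) * (((m + 1) ^ 8 + (m + 1) ^ 4 + 1) * ((m + 1) ^ 3 + 1)) := by
    linear_combination h
  exact Nat.eq_of_mul_eq_mul_left (by positivity) h1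

theorem index1 : (PJ cs isCartan (T K q) (X φ q) ({1} : Set (Fin 2))).index = (q ^ 8 + q ^ 4 + 1) * (q + 1) := by
  obtain ⟨p, hcp⟩ := CharP.exists K
  have : Fact p.Prime := ⟨CharP.char_is_prime K p⟩
  have h := index_mul hK hφ hq cs 1
  rw [card_X1 hK hφ hq] at h
  generalize (PJ cs isCartan (T K q) (X φ q) ({1} : Set (Fin 2))).index = i at *
  have hq1 := hq.one_lt
  obtain ⟨m, rfl⟩ : ∃ m, q = m + 1 := ⟨q - 1, by omega⟩
  have hm : 0 < m := by omega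
  have e1 : m + 1 - 1 = m := by omega
  have e2 : (m + 1) ^ 2 - 1 = m * (m + 2) := by apply Nat.sub_eq_of_eq_add; ring
  have e3 : (m + 1) ^ 3 - 1 = m * (m ^ 2 + 3 * m + 3) := by apply Nat.sub_eq_of_eq_add; ring
  have e6 : (m + 1) ^ 6 - 1 = m * (m ^ 2 + 3 * m + 3) * ((m + 1) ^ 3 + 1) := by apply Nat.sub_eq_of_eq_add; ring
  rw [e1, e2, e3, e6] at h
  have h1 : m * (m * (m ^ 2 + 3 * m + 3)) * ((m + 1) ^ 3 + 1) * i =
      m * (m * (m ^ 2 + 3 * m + 3)) * ((m + 1) ^ 3 + 1) * (((m + 1) ^ 8 + (m + 1) ^ 4 + 1) * (m + 1 + 1)) := by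
    linear_combination h
  exact Nat.eq_of_mul_eq_mul_left (by positivity) h1

theorem card_U : Nat.card ↥(RGD.Sup (X φ q) (RGD.Pos cs isCartan)) = q ^ 12 := by
  obtain ⟨p, hcp⟩ := CharP.exists K
  have : Fact p.Prime := ⟨CharP.char_is_prime K p⟩
  have := finG (φ := φ) hK hφ hq
  have hfin : Finite W := Nodes.RGDFold.finite_W (hp := hp) cs isCartan foldData
  have hR := rgd cs hK hφ p
  have h1 := Cfsg.Agent.H866.OZ.card_PJ_one hR 0
  have h2 := index_mul hK hφ hq cs 0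
  have h3 := Subgroup.index_mul_card (PJ cs isCartan (T K q) (X φ q) ({0} : Set (Fin 2)))
  rw [h1, Cfsg.Agent.H35.Poin.card_B' hR, card_T hK hφ hq, S1067.result hq hK] at h3
  have h4 : 0 < (q ^ 2 - 1) * (q ^ 6 - 1) * (q ^ 8 + q ^ 4 + 1) :=
    Nat.pos_of_ne_zero fun h => not_dvd hK hq (p := p) (h ▸ dvd_zero _)
  apply Nat.eq_of_mul_eq_mul_right h4
  calc _ = _ := by rw [← h2]
    _ = _ := by
      rw [show q ^ 12 * ((q ^ 2 - 1) * (q ^ 6 - 1) * (q ^ 8 + q ^ 4 + 1)) =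
        q ^ 12 * (q ^ 2 - 1) * (q ^ 6 - 1) * (q ^ 8 + q ^ 4 + 1) by ring, ← h3]
      ring

theorem card_V0 : Nat.card ↥(VJ cs isCartan (X φ q) ({0} : Set (Fin 2))) = q ^ 11 := by
  obtain ⟨p, hcp⟩ := CharP.exists K
  have : Fact p.Prime := ⟨CharP.char_is_prime K p⟩
  have := finG (φ := φ) hK hφ hq
  have hfin : Finite W := Nodes.RGDFold.finite_W (hp := hp) cs isCartan foldData
  have hR := rgd cs hK hφ p
  have h1 := Cfsg.Agent.H866.OZ.card_U_single hR 0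
  rw [card_U hK hφ hq cs, Cfsg.Agent.KFacts.RgdDiag.UJ_singleton, card_X0 hK hφ hq, pow_succ'] at h1
  exact (Nat.eq_of_mul_eq_mul_left hq.pos h1).symm

theorem card_V1 : Nat.card ↥(VJ cs isCartan (X φ q) ({1} : Set (Fin 2))) = q ^ 9 := by
  obtain ⟨p, hcp⟩ := CharP.exists K
  have : Fact p.Prime := ⟨CharP.char_is_prime K p⟩
  have := finG (φ := φ) hK hφ hq
  have hfin : Finite W := Nodes.RGDFold.finite_W (hp := hp) cs isCartan foldData
  have hR := rgd cs hK hφ p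
  have h1 := Cfsg.Agent.H866.OZ.card_U_single hR 1
  rw [card_U hK hφ hq cs, Cfsg.Agent.KFacts.RgdDiag.UJ_singleton, card_X1 hK hφ hq,
    show q ^ 12 = q ^ 3 * q ^ 9 by ring] at h1
  exact (Nat.eq_of_mul_eq_mul_left (pow_pos hq.pos 3) h1).symm

omit hφ in
theorem ncard_eq (P : Subgroup ↥(twistedD4 K q)) : (pSet p ↥(twistedD4 K q) ∩ (P : Set ↥(twistedD4 K q))).ncard =
    Nat.card {u : ↥(twistedD4 K q) // u ∈ P ∧ ∃ k, orderOf u = p ^ k} := by
  rw [← Nat.card_coe_set_eq]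
  exact Nat.card_congr (Equiv.subtypeEquivRight fun u => and_comm)

/-- **`q ^ 13` `p`-elements in the parabolic subgroup with Levi subgroup `SL₂(q).(q³-1)`** -/
theorem pel0 : (pSet p ↥(twistedD4 K q) ∩
    (PJ cs isCartan (T K q) (X φ q) ({0} : Set (Fin 2)) : Set ↥(twistedD4 K q))).ncard = q ^ 13 := by
  have := finG (φ := φ) hK hφ hq
  have hfin : Finite W := Nodes.RGDFold.finite_W (hp := hp) cs isCartan foldData
  have hR := rgd cs hK hφ p
  rw [ncard_eq hK hq, Pel.card_pel_PJ hR 0, card_V0 hK hφ hq, card_X0 hK hφ hq, ← pow_add]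

/-- **`q ^ 15` `p`-elements in the parabolic subgroup with Levi subgroup `SL₂(q³).(q-1)`** -/
theorem pel1 : (pSet p ↥(twistedD4 K q) ∩
    (PJ cs isCartan (T K q) (X φ q) ({1} : Set (Fin 2)) : Set ↥(twistedD4 K q))).ncard = q ^ 15 := by
  have := finG (φ := φ) hK hφ hq
  have hfin : Finite W := Nodes.RGDFold.finite_W (hp := hp) cs isCartan foldData
  have hR := rgd cs hK hφ p
  rw [ncard_eq hK hq, Pel.card_pel_PJ hR 1, card_V1 hK hφ hq, card_X1 hK hφ hq, ← pow_mul, ← pow_add]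

/-- `q ^ 12` `p`-elements in `B` -/
theorem pelB : (pSet p ↥(twistedD4 K q) ∩
    (RGD.B cs isCartan (T K q) (X φ q) : Set ↥(twistedD4 K q))).ncard = q ^ 12 := by
  have := finG (φ := φ) hK hφ hq
  have hfin : Finite W := Nodes.RGDFold.finite_W (hp := hp) cs isCartan foldData
  have hR := rgd cs hK hφ p
  rw [ncard_eq hK hq, Pel.card_pel_B hR, card_U hK hφ hq]

end Cfsg.Agent.H442.TW.PelD4
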